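import Cfsg.Agent.H700.FiRow.Gen
import Cfsg.Agent.H830.Con22
import Cfsg.Agent.H816.Quasi
import Cfsg.Agent.OddHalf.D8.Fi22.KTrans

/-!
# S3842, S4094, S4095, `p = 2`: the row `Fi22` (task 2272)
-/

set_option autoImplicit false

namespace Cfsg.Agent.H700.FiRow

open Subgroup Cfsg Cfsg.Agent.Fischer480.Defs
open Cfsg.Agent.H509.TwoFrame

universe u

/-- The class of 3-transpositions of `Fi22`. -/
theorem tg22 : TG (R01.Fi22Facts.T) 3510 693 180 := by
  have h6 := H830.Con22.isT6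
  have kt := OddHalf.D8.Fi22.kTrans0
  refine ⟨kt.sq, kt.conj, ?_, h6.1, ?_, ?_, ?_⟩
  · intro a ha b hb
    exact kt.three a ha b hb
  · intro a ha
    have h1 := (TSp.UCount.numbers_six (h6.2.1 a ha)).1
    rw [← h1]
    congr 1
    ext c
    constructor
    · rintro ⟨a1, a2, a3⟩
      exact ⟨a1, a2, a3.symm⟩
    · rintro ⟨a1, a2, a3⟩
      exact ⟨a1, a2, a3.symm⟩
  · intro a ha b hb hab hc
    have h1 := (TSp.UCount.numbers_six (h6.2.1 a ha)).2.1 b ⟨hb, hab.symm, hc⟩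
    rw [← h1]
    congr 1
    ext c
    constructor
    · rintro ⟨a1, a2, a3, a4, a5⟩
      exact ⟨⟨a1, a2, a4.symm⟩, a3, a5.symm⟩
    · rintro ⟨⟨a1, a2, a4⟩, a3, a5⟩
      exact ⟨a1, a2, a3, a4.symm, a5.symm⟩
  · intro a ha b hb b' hb' h1 h2
    exact kt.transN a ha b hb a ha b' hb' h1 h2

/-- **Row `Fi22`**, without any hypothesis on `x`. -/
theorem fi22 {G : Type u} [Group G] [Finite G] {L : Subgroup G} (h : Spor.IsoFi22 L) {x : G} (C : Ctx 2 L x) :
    False := by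
  obtain ⟨e⟩ := h
  have : Finite Spor.Fi22 := Finite.of_equiv _ e.toEquiv
  exact false_of_aut tg22 (by norm_num) (by norm_num) OddHalf.D8.Fi22.kTrans0.aut OddHalf.D8.Fi22.kTrans0.gen e C

/-- **Outer row `Fi22`** -/
theorem outrow_Fi22 {G : Type u} [Group G] [Finite G] {L : Subgroup G} (h : Spor.IsoFi22 L) {x : G} (C : Ctx 2 L x)
    (_ : x ∉ L) (_ : 2 ∣ orderOf x) : False := fi22 h C

end Cfsg.Agent.H700.FiRow
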